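import Mathlib

/-! S4234: definitions for the farm. -/

set_option autoImplicit false

namespace Cfsg.Agent.Lib.Helper40.L13

/-- every non-normal subgroup has a maximal normaliser -/
def MaxNorm (K : Type*) [Group K] : Prop :=
  ∀ H : Subgroup K, ¬ H.Normal → IsCoatom (Subgroup.normalizer (H : Set K))

/-- the orders of the subgroups of `PSL₂(13)` -/
def OrdList (G : Type*) [Group G] : Prop :=
  ∀ H : Subgroup G, Nat.card H ∈ ({1, 2, 3, 4, 6, 7, 12, 13, 14, 26, 39, 78, 1092} : Finset ℕ)

abbrev PSL13 := Matrix.ProjectiveSpecialLinearGroup (Fin 2) (ZMod 13)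
abbrev SL13 := Matrix.SpecialLinearGroup (Fin 2) (ZMod 13)

end Cfsg.Agent.Lib.Helper40.L13
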