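import Mathlib
import Cfsg.Agent.Lib.Helper40.L13.Defs


/-! S4234 farm, piece QA. Subgroups of order 12, 14, 78 are maximal and self-normalising (no proper multiple in the list except 1092). -/

set_option autoImplicit false

namespace Cfsg.Agent.Lib.Helper40.L13

variable {G : Type*} [Group G]

theorem isCoatom_of_card [Finite G] (hc : Nat.card G = 1092) (hL : OrdList G) (H : Subgroup G)
    (hH : Nat.card H = 12 ∨ Nat.card H = 14 ∨ Nat.card H = 78) : IsCoatom H := by
  constructor
  · intro htop
    rw [htop, Subgroup.card_top, hc] at hH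
    omega
  · intro K hK
    have hd : Nat.card H ∣ Nat.card K := Subgroup.card_dvd_of_le hK.le
    have hne : Nat.card H ≠ Nat.card K := by
      intro heq
      exact hK.ne (Subgroup.eq_of_le_of_card_ge hK.le heq.ge)
    have hl := hL K
    simp only [Finset.mem_insert, Finset.mem_singleton] at hl
    apply Subgroup.eq_top_of_card_eq
    rw [hc]
    obtain ⟨k, hk⟩ : ∃ k, k = Nat.card K := ⟨_, rfl⟩
    obtain ⟨m, hm⟩ : ∃ m, m = Nat.card H := ⟨_, rfl⟩
    rw [← hk] at hd hne hl ⊢
    rw [← hm] at hd hne hH
    rcases hH with rfl | rfl | rfl <;>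
      rcases hl with rfl | rfl | rfl | rfl | rfl | rfl | rfl | rfl | rfl | rfl | rfl | rfl | rfl <;>
      omega

theorem normalizer_eq_self_of_card [Finite G] [IsSimpleGroup G] (hc : Nat.card G = 1092)
    (hL : OrdList G) (H : Subgroup G)
    (hH : Nat.card H = 12 ∨ Nat.card H = 14 ∨ Nat.card H = 78) :
    Subgroup.normalizer (H : Set G) = H := by
  have hco := isCoatom_of_card hc hL H hH
  rcases hco.le_iff.1 (Subgroup.le_normalizer (H := H)) with h | h
  · exfalso
    have hn : H.Normal := Subgroup.normalizer_eq_top_iff.1 h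
    rcases hn.eq_bot_or_eq_top with h' | h'
    · rw [h', Subgroup.card_bot] at hH
      omega
    · exact hco.1 h'
  · exact h

end Cfsg.Agent.Lib.Helper40.L13
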