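import Mathlib
import Cfsg.Agent.Lib.Helper40.L13.Defs

/-! S4234 farm, piece QB. Burnside transfer: in a simple group a proper nontrivial Sylow subgroup
is not central in its normaliser. -/

set_option autoImplicit false

namespace Cfsg.Agent.Lib.Helper40.L13

variable {G : Type*} [Group G]

theorem not_normalizer_le_centralizer [Finite G] [IsSimpleGroup G] (p : ℕ) [Fact p.Prime]
    (P : Sylow p G) (h1 : (P : Subgroup G) ≠ ⊥) (h2 : (P : Subgroup G) ≠ ⊤) :
    ¬ Subgroup.normalizer ((P : Subgroup G) : Set G) ≤
      Subgroup.centralizer ((P : Subgroup G) : Set G) := by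
  intro hP
  have hc := MonoidHom.ker_transferSylow_isComplement' P hP
  rcases (MonoidHom.normal_ker (MonoidHom.transferSylow P hP)).eq_bot_or_eq_top with h | h
  · rw [h] at hc
    exact h2 (Subgroup.isComplement'_bot_left.mp hc)
  · rw [h] at hc
    exact h1 (Subgroup.isComplement'_top_left.mp hc)

end Cfsg.Agent.Lib.Helper40.L13
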