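import Mathlib
import Cfsg.Agent.Lib.Helper40.L13.Defs


/-! S4234 farm, piece QC. Sylow arithmetic. -/

set_option autoImplicit false

namespace Cfsg.Agent.Lib.Helper40.L13

variable {G : Type*} [Group G]

/-- a subgroup of prime order `p` with index prime to `p`: the index of the normaliser is `1` mod `p` -/
theorem QC_index_mod [Finite G] (p : ℕ) [Fact p.Prime] (H : Subgroup G) (hH : Nat.card H = p)
    (hidx : ¬ p ∣ H.index) : (Subgroup.normalizer (H : Set G)).index % p = 1 % p := by
  have hp : IsPGroup p H := IsPGroup.of_card (n := 1) (by rw [hH, pow_one])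
  have h1 := card_sylow_modEq_one p G
  rw [Sylow.card_eq_index_normalizer (hp.toSylow hidx)] at h1
  exact h1

theorem QC_card_ne [Finite G] [IsSimpleGroup G] (H : Subgroup G) (h1 : Nat.card H ≠ 1)
    (h2 : Nat.card H ≠ Nat.card G) :
    Nat.card (Subgroup.normalizer (H : Set G)) ≠ Nat.card G := by
  intro h
  have htop : Subgroup.normalizer (H : Set G) = ⊤ := Subgroup.eq_top_of_card_eq _ h
  have hn : H.Normal := Subgroup.normalizer_eq_top_iff.1 htop
  rcases hn.eq_bot_or_eq_top with h' | h'
  · rw [h', Subgroup.card_bot] at h1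
    exact h1 rfl
  · rw [h', Subgroup.card_top] at h2
    exact h2 rfl

theorem card_normalizer_thirteen [Finite G] [IsSimpleGroup G] (hc : Nat.card G = 1092)
    (hL : OrdList G) (H : Subgroup G) (hH : Nat.card H = 13) :
    Nat.card (Subgroup.normalizer (H : Set G)) = 78 := by
  have : Fact (Nat.Prime 13) := ⟨by norm_num⟩
  have hi : H.index = 84 := by
    have := H.card_mul_index
    rw [hH, hc] at this
    omega
  have h1 := QC_index_mod 13 H hH (by rw [hi]; norm_num)
  have h2 := QC_card_ne H (by rw [hH]; norm_num) (by rw [hH, hc]; norm_num)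
  have h3 := (Subgroup.normalizer (H : Set G)).card_mul_index
  have h4 : Nat.card H ∣ Nat.card (Subgroup.normalizer (H : Set G)) :=
    Subgroup.card_dvd_of_le Subgroup.le_normalizer
  have hl := hL (Subgroup.normalizer (H : Set G))
  simp only [Finset.mem_insert, Finset.mem_singleton] at hl
  rw [hc] at h2 h3
  rw [hH] at h4
  obtain ⟨k, hk⟩ : ∃ k, k = Nat.card (Subgroup.normalizer (H : Set G)) := ⟨_, rfl⟩
  obtain ⟨j, hj⟩ : ∃ j, j = (Subgroup.normalizer (H : Set G)).index := ⟨_, rfl⟩
  rw [← hk] at h2 h3 h4 hl ⊢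
  rw [← hj] at h1 h3
  rcases hl with rfl | rfl | rfl | rfl | rfl | rfl | rfl | rfl | rfl | rfl | rfl | rfl | rfl <;>
    omega

theorem card_normalizer_seven [Finite G] [IsSimpleGroup G] (hc : Nat.card G = 1092)
    (hL : OrdList G) (H : Subgroup G) (hH : Nat.card H = 7) :
    Nat.card (Subgroup.normalizer (H : Set G)) = 14 := by
  have : Fact (Nat.Prime 7) := ⟨by norm_num⟩
  have hi : H.index = 156 := by
    have := H.card_mul_index
    rw [hH, hc] at this
    omega
  have h1 := QC_index_mod 7 H hH (by rw [hi]; norm_num)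
  have h2 := QC_card_ne H (by rw [hH]; norm_num) (by rw [hH, hc]; norm_num)
  have h3 := (Subgroup.normalizer (H : Set G)).card_mul_index
  have h4 : Nat.card H ∣ Nat.card (Subgroup.normalizer (H : Set G)) :=
    Subgroup.card_dvd_of_le Subgroup.le_normalizer
  have hl := hL (Subgroup.normalizer (H : Set G))
  simp only [Finset.mem_insert, Finset.mem_singleton] at hl
  rw [hc] at h2 h3
  rw [hH] at h4
  obtain ⟨k, hk⟩ : ∃ k, k = Nat.card (Subgroup.normalizer (H : Set G)) := ⟨_, rfl⟩
  obtain ⟨j, hj⟩ : ∃ j, j = (Subgroup.normalizer (H : Set G)).index := ⟨_, rfl⟩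
  rw [← hk] at h2 h3 h4 hl ⊢
  rw [← hj] at h1 h3
  rcases hl with rfl | rfl | rfl | rfl | rfl | rfl | rfl | rfl | rfl | rfl | rfl | rfl | rfl <;>
    omega

end Cfsg.Agent.Lib.Helper40.L13
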