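import Mathlib
import Cfsg.Agent.Lib.Helper40.L13.Defs
import Cfsg.Agent.Lib.Helper40.L13.QB
import Cfsg.Agent.Lib.Helper40.L13.QC

/-! S4234 farm, piece QD. -/

set_option autoImplicit false

namespace Cfsg.Agent.Lib.Helper40.L13

variable {G : Type*} [Group G]

theorem QD_comm [Finite G] (H : Subgroup G) (hH : Nat.card H = 3) {g h : G}
    (hg : g ∈ Subgroup.normalizer (H : Set G)) (hodd : Odd (orderOf g)) (hh : h ∈ H) :
    h * g = g * h := by
  have : Fact (Nat.Prime 3) := ⟨Nat.prime_three⟩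
  by_cases h1 : h = 1
  · simp [h1]
  have h3 : h ^ 3 = 1 := by
    have : (⟨h, hh⟩ : H) ^ Nat.card H = 1 := pow_card_eq_one'
    rw [hH] at this
    exact congrArg Subtype.val this
  have ho : orderOf h = 3 := orderOf_eq_prime h3 h1
  have hconj : g * h * g⁻¹ ∈ H := (Subgroup.mem_normalizer_iff.1 hg h).1 hh
  have hz : (⟨g * h * g⁻¹, hconj⟩ : H) ∈ Subgroup.zpowers (⟨h, hh⟩ : H) :=
    mem_zpowers_of_prime_card hH (by intro h'; exact h1 (congrArg Subtype.val h'))
  obtain ⟨k, hk3, hk⟩ : ∃ k : ℕ, k < 3 ∧ g * h * g⁻¹ = h ^ k := by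
    have h1' := (isOfFinOrder_of_finite (⟨h, hh⟩ : H)).mem_powers_iff_mem_zpowers.2 hz
    obtain ⟨n, hn⟩ := Submonoid.mem_powers_iff _ _ |>.1 h1'
    refine ⟨n % 3, Nat.mod_lt _ (by norm_num), ?_⟩
    have hn' : h ^ n = g * h * g⁻¹ := congrArg Subtype.val hn
    rw [← hn', ← ho, pow_mod_orderOf]
  interval_cases k
  · rw [pow_zero, conj_eq_one_iff] at hk
    exact absurd hk h1
  · rw [pow_one] at hk
    calc h * g = g * h * g⁻¹ * g := by rw [hk]
      _ = g * h := by group
  · have h2 : g ^ 2 * h * (g ^ 2)⁻¹ = h := by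
      calc g ^ 2 * h * (g ^ 2)⁻¹ = g * (g * h * g⁻¹) * g⁻¹ := by
            rw [pow_two, mul_inv_rev]; simp only [mul_assoc]
        _ = g * h ^ 2 * g⁻¹ := by rw [hk]
        _ = (g * h * g⁻¹) ^ 2 := by rw [conj_pow]
        _ = h ^ 3 * h := by rw [hk]; group
        _ = h := by rw [h3, one_mul]
    have hc2 : Commute (g ^ 2) h := by
      calc g ^ 2 * h = g ^ 2 * h * (g ^ 2)⁻¹ * g ^ 2 := by group
        _ = h * g ^ 2 := by rw [h2]
    obtain ⟨m, hm⟩ := hodd
    have hgm : (g ^ 2) ^ (m + 1) = g := by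
      rw [← pow_mul, show 2 * (m + 1) = (2 * m + 1) + 1 by ring, pow_succ, ← hm, pow_orderOf_eq_one,
        one_mul]
    have hc : Commute g h := by
      rw [← hgm]; exact hc2.pow_left _
    exact hc.eq.symm

theorem card_normalizer_three [Finite G] [IsSimpleGroup G] (hc : Nat.card G = 1092)
    (hL : OrdList G) (H : Subgroup G) (hH : Nat.card H = 3) :
    Nat.card (Subgroup.normalizer (H : Set G)) = 12 := by
  have : Fact (Nat.Prime 3) := ⟨Nat.prime_three⟩
  have hi : H.index = 364 := by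
    have := H.card_mul_index
    rw [hH, hc] at this
    omega
  have hidx : ¬ 3 ∣ H.index := by rw [hi]; norm_num
  have h1 := QC_index_mod 3 H hH hidx
  have h2 := QC_card_ne H (by rw [hH]; norm_num) (by rw [hH, hc]; norm_num)
  have h3 := (Subgroup.normalizer (H : Set G)).card_mul_index
  have h4 : Nat.card H ∣ Nat.card (Subgroup.normalizer (H : Set G)) :=
    Subgroup.card_dvd_of_le Subgroup.le_normalizer
  have hl := hL (Subgroup.normalizer (H : Set G))
  simp only [Finset.mem_insert, Finset.mem_singleton] at hl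
  -- the normaliser has even order
  have heven : ¬ Odd (Nat.card (Subgroup.normalizer (H : Set G))) := by
    intro hodd
    have hp : IsPGroup 3 H := IsPGroup.of_card (n := 1) (by rw [hH, pow_one])
    apply not_normalizer_le_centralizer 3 (hp.toSylow hidx)
    · intro hbot
      have : H = ⊥ := hbot
      rw [this, Subgroup.card_bot] at hH
      omega
    · intro htop
      have : H = ⊤ := htop
      rw [this, Subgroup.card_top, hc] at hH
      omega
    · intro g hg
      have hg' : g ∈ Subgroup.normalizer (H : Set G) := hg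
      rw [Subgroup.mem_centralizer_iff]
      intro h hh
      have hh' : h ∈ H := hh
      apply QD_comm H hH hg' _ hh'
      have hd : orderOf (⟨g, hg'⟩ : Subgroup.normalizer (H : Set G)) ∣
          Nat.card (Subgroup.normalizer (H : Set G)) := orderOf_dvd_natCard _
      rw [Subgroup.orderOf_mk] at hd
      exact hodd.of_dvd_nat hd
  rw [hc] at h2 h3
  rw [hH] at h4
  obtain ⟨k, hk⟩ : ∃ k, k = Nat.card (Subgroup.normalizer (H : Set G)) := ⟨_, rfl⟩
  obtain ⟨j, hj⟩ : ∃ j, j = (Subgroup.normalizer (H : Set G)).index := ⟨_, rfl⟩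
  rw [← hk] at h2 h3 h4 hl heven ⊢
  rw [← hj] at h1 h3
  rw [Nat.not_odd_iff_even, Nat.even_iff] at heven
  rcases hl with rfl | rfl | rfl | rfl | rfl | rfl | rfl | rfl | rfl | rfl | rfl | rfl | rfl <;>
    omega

end Cfsg.Agent.Lib.Helper40.L13
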