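import Mathlib
import Cfsg.Agent.Lib.Helper40.L13.Defs
import Cfsg.Agent.Lib.Helper40.L13.QB
import Cfsg.Agent.Lib.Helper40.L13.QC

/-! S4234 farm, piece QE. -/

set_option autoImplicit false

namespace Cfsg.Agent.Lib.Helper40.L13

variable {G : Type*} [Group G]

theorem card_normalizer_four [Finite G] [IsSimpleGroup G] (hc : Nat.card G = 1092)
    (hL : OrdList G) (H : Subgroup G) (hH : Nat.card H = 4) :
    Nat.card (Subgroup.normalizer (H : Set G)) = 12 := by
  have : Fact (Nat.Prime 2) := ⟨Nat.prime_two⟩
  have hi : H.index = 273 := by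
    have := H.card_mul_index
    rw [hH, hc] at this
    omega
  have hidx : ¬ 2 ∣ H.index := by rw [hi]; norm_num
  have h2 := QC_card_ne H (by rw [hH]; norm_num) (by rw [hH, hc]; norm_num)
  have h4 : Nat.card H ∣ Nat.card (Subgroup.normalizer (H : Set G)) :=
    Subgroup.card_dvd_of_le Subgroup.le_normalizer
  have hl := hL (Subgroup.normalizer (H : Set G))
  simp only [Finset.mem_insert, Finset.mem_singleton] at hl
  have hne4 : Nat.card (Subgroup.normalizer (H : Set G)) ≠ 4 := by
    intro h4'
    have heq : H = Subgroup.normalizer (H : Set G) :=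
      Subgroup.eq_of_le_of_card_ge Subgroup.le_normalizer (by rw [h4', hH])
    have hp : IsPGroup 2 H := IsPGroup.of_card (n := 2) (by rw [hH]; norm_num)
    have hcomm : ∀ a b : H, a * b = b * a :=
      IsPGroup.commutative_of_card_eq_prime_sq (p := 2) (by rw [hH]; norm_num)
    apply not_normalizer_le_centralizer 2 (hp.toSylow hidx)
    · intro hbot
      have : H = ⊥ := hbot
      rw [this, Subgroup.card_bot] at hH
      omega
    · intro htop
      have : H = ⊤ := htop
      rw [this, Subgroup.card_top, hc] at hH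
      omega
    · intro g hg
      have hg' : g ∈ Subgroup.normalizer (H : Set G) := hg
      rw [← heq] at hg'
      rw [Subgroup.mem_centralizer_iff]
      intro h hh
      have hh' : h ∈ H := hh
      exact congrArg Subtype.val (hcomm ⟨h, hh'⟩ ⟨g, hg'⟩)
  rw [hc] at h2
  rw [hH] at h4
  obtain ⟨k, hk⟩ : ∃ k, k = Nat.card (Subgroup.normalizer (H : Set G)) := ⟨_, rfl⟩
  rw [← hk] at h2 h4 hl hne4 ⊢
  rcases hl with rfl | rfl | rfl | rfl | rfl | rfl | rfl | rfl | rfl | rfl | rfl | rfl | rfl <;>
    omega

end Cfsg.Agent.Lib.Helper40.L13
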