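import Mathlib
import Cfsg.Agent.Lib.Helper40.L13.Defs


/-! S4234 farm, piece QF. H = {1,t} of order 2: N(H) = C(t). -/

set_option autoImplicit false

namespace Cfsg.Agent.Lib.Helper40.L13

variable {G : Type*} [Group G]

theorem card_normalizer_two [Finite G]
    (hC2 : ∀ x : G, orderOf x = 2 → Nat.card (Subgroup.centralizer ({x} : Set G)) = 12)
    (H : Subgroup G) (hH : Nat.card H = 2) :
    Nat.card (Subgroup.normalizer (H : Set G)) = 12 := by
  have : Fact (Nat.Prime 2) := ⟨Nat.prime_two⟩
  obtain ⟨⟨t, htH⟩, ht1, huniq⟩ := (Nat.card_eq_two_iff' (1 : H)).1 hH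
  have ht1' : t ≠ 1 := fun h => ht1 (Subtype.ext h)
  have hmem : ∀ h ∈ H, h = 1 ∨ h = t := by
    intro h hh
    by_cases h1 : h = 1
    · exact Or.inl h1
    · right
      have := huniq ⟨h, hh⟩ (fun h' => h1 (congrArg Subtype.val h'))
      exact congrArg Subtype.val this
  have ht2 : t ^ 2 = 1 := by
    have : (⟨t, htH⟩ : H) ^ Nat.card H = 1 := pow_card_eq_one'
    rw [hH] at this
    exact congrArg Subtype.val this
  have ho : orderOf t = 2 := orderOf_eq_prime ht2 ht1'
  have heq : Subgroup.normalizer (H : Set G) = Subgroup.centralizer ({t} : Set G) := by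
    ext g
    rw [Subgroup.mem_normalizer_iff, Subgroup.mem_centralizer_singleton_iff]
    constructor
    · intro hg
      have h1 : g * t * g⁻¹ ∈ H := (hg t).1 htH
      rcases hmem _ h1 with h2 | h2
      · rw [conj_eq_one_iff] at h2
        exact absurd h2 ht1'
      · calc g * t = g * t * g⁻¹ * g := by group
          _ = t * g := by rw [h2]
    · intro hg h
      have hgt : g * t * g⁻¹ = t := by rw [hg]; group
      constructor
      · intro hh
        rcases hmem h hh with rfl | rfl
        · simp
        · rw [hgt]; exact hh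
      · intro hh
        rcases hmem _ hh with h2 | h2
        · rw [conj_eq_one_iff] at h2
          rw [h2]; exact H.one_mem
        · have : h = t := by
            have h3 : g * h * g⁻¹ = g * t * g⁻¹ := by rw [h2, hgt]
            exact mul_left_cancel (mul_right_cancel h3)
          rw [this]; exact htH
  rw [heq, hC2 t ho]

end Cfsg.Agent.Lib.Helper40.L13
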