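import Mathlib
import Cfsg.Agent.Lib.Helper40.L13.Defs


/-! S4234 farm, piece QG. -/

set_option autoImplicit false

namespace Cfsg.Agent.Lib.Helper40.L13

variable {G : Type*} [Group G]

/-- a subgroup `H` whose order is `p * r` with `r` the smallest prime divisor and `p ∤ r`:
there is a subgroup `P` of order `p` which consists of the elements `x ∈ H` with `x ^ p = 1`. -/
theorem QG_exists_char [Finite G] (H : Subgroup G) (p r : ℕ) [Fact p.Prime] (hH : Nat.card H = p * r)
    (hr : (p * r).minFac = r) (hpr : Nat.Coprime p r) :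
    ∃ P : Subgroup G, Nat.card P = p ∧ P ≤ H ∧ ∀ x, x ∈ P ↔ x ∈ H ∧ x ^ p = 1 := by
  have hp : p.Prime := Fact.out
  obtain ⟨P0⟩ : Nonempty (Sylow p ↥H) := inferInstance
  have hr0 : r ≠ 0 := by
    rintro rfl
    rw [mul_zero] at hH
    exact Nat.card_pos.ne' hH
  have hc : Nat.card (P0 : Subgroup ↥H) = p := by
    rw [Sylow.card_eq_multiplicity, hH, Nat.factorization_mul hp.ne_zero hr0]
    simp only [Finsupp.coe_add, Pi.add_apply]
    rw [hp.factorization_self, Nat.factorization_eq_zero_of_not_dvd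
      (fun h => hp.one_lt.ne' (Nat.eq_one_of_dvd_coprimes hpr (dvd_refl p) h)), pow_one]
  have hidx : (P0 : Subgroup ↥H).index = r := by
    have h1 := Subgroup.card_mul_index (P0 : Subgroup ↥H)
    rw [hc, hH] at h1
    exact Nat.eq_of_mul_eq_mul_left hp.pos h1
  have hnorm : (P0 : Subgroup ↥H).Normal := by
    apply Subgroup.normal_of_index_eq_minFac_card
    rw [hidx, hH, hr]
  refine ⟨(P0 : Subgroup ↥H).map H.subtype, ?_, ?_, ?_⟩
  · rw [Subgroup.card_map_of_injective H.subtype_injective, hc]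
  · exact Subgroup.map_subtype_le _
  · intro x
    constructor
    · rintro ⟨y, hy, rfl⟩
      refine ⟨y.2, ?_⟩
      have h1 := pow_card_eq_one' (x := (⟨y, hy⟩ : (P0 : Subgroup ↥H)))
      rw [hc] at h1
      have h2 : y ^ p = 1 := congrArg Subtype.val h1
      exact congrArg Subtype.val h2
    · rintro ⟨hx, hxp⟩
      refine ⟨⟨x, hx⟩, ?_, rfl⟩
      have h1 : (⟨x, hx⟩ : ↥H) ^ r ∈ (P0 : Subgroup ↥H) := by
        have := Subgroup.pow_index_mem (P0 : Subgroup ↥H) ⟨x, hx⟩
        rwa [hidx] at this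
      have h2 : (⟨x, hx⟩ : ↥H) ^ p = 1 := Subtype.ext hxp
      -- Bezout
      have h3 : (⟨x, hx⟩ : ↥H) ^ (Nat.gcd p r : ℤ) ∈ (P0 : Subgroup ↥H) := by
        rw [Nat.gcd_eq_gcd_ab, zpow_add, zpow_mul, zpow_mul, zpow_natCast, zpow_natCast, h2,
          one_zpow, one_mul]
        exact Subgroup.zpow_mem _ h1 _
      rw [hpr] at h3
      have h4 : (⟨x, hx⟩ : ↥H) ∈ (P0 : Subgroup ↥H) := by simpa using h3
      exact h4

/-- the normaliser of `H` normalises such a `P` -/
theorem QG_normalizer_le (H P : Subgroup G) (p : ℕ) (hP : ∀ x, x ∈ P ↔ x ∈ H ∧ x ^ p = 1) :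
    Subgroup.normalizer (H : Set G) ≤ Subgroup.normalizer (P : Set G) := by
  intro g hg
  rw [Subgroup.mem_normalizer_iff] at hg ⊢
  intro x
  rw [hP, hP, ← hg x, conj_pow]
  constructor
  · rintro ⟨h1, h2⟩
    exact ⟨h1, by rw [h2, mul_one, mul_inv_cancel]⟩
  · rintro ⟨h1, h2⟩
    refine ⟨h1, ?_⟩
    have : x ^ p = g⁻¹ * (g * x ^ p * g⁻¹) * g := by group
    rw [this, h2, mul_one, inv_mul_cancel]

theorem card_normalizer_six [Finite G]
    (hN3 : ∀ P : Subgroup G, Nat.card P = 3 → Nat.card (Subgroup.normalizer (P : Set G)) = 12)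
    (H : Subgroup G) (hH : Nat.card H = 6) :
    Nat.card (Subgroup.normalizer (H : Set G)) = 12 := by
  have : Fact (Nat.Prime 3) := ⟨Nat.prime_three⟩
  obtain ⟨P, hPc, hPH, hP⟩ := QG_exists_char H 3 2 hH (by norm_num) (by norm_num)
  have h1 := QG_normalizer_le H P 3 hP
  have h2 : H ≤ Subgroup.normalizer (P : Set G) := Subgroup.le_normalizer.trans h1
  have h3 : (H.subgroupOf (Subgroup.normalizer (P : Set G))).index = 2 := by
    have h4 := Subgroup.card_mul_index (H.subgroupOf (Subgroup.normalizer (P : Set G)))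
    rw [hN3 P hPc, Nat.card_congr (Subgroup.subgroupOfEquivOfLe h2).toEquiv, hH] at h4
    omega
  have h5 : Subgroup.normalizer (P : Set G) ≤ Subgroup.normalizer (H : Set G) :=
    (Subgroup.normal_subgroupOf_iff_le_normalizer h2).1 (Subgroup.normal_of_index_eq_two h3)
  rw [le_antisymm h1 h5, hN3 P hPc]

end Cfsg.Agent.Lib.Helper40.L13
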