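import Mathlib
import Cfsg.Agent.Lib.Helper40.L13.Defs
import Cfsg.Agent.Lib.Helper40.L13.QG


/-! S4234 farm, piece QH. -/

set_option autoImplicit false

namespace Cfsg.Agent.Lib.Helper40.L13

variable {G : Type*} [Group G]

theorem QH_aux [Finite G]
    (hN13 : ∀ P : Subgroup G, Nat.card P = 13 → Nat.card (Subgroup.normalizer (P : Set G)) = 78)
    (hC13 : ∀ x : G, orderOf x = 13 → Nat.card (Subgroup.centralizer ({x} : Set G)) = 13)
    (H P : Subgroup G) (hPc : Nat.card P = 13) (hPH : P ≤ H)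
    (hP : ∀ x, x ∈ P ↔ x ∈ H ∧ x ^ 13 = 1) :
    Nat.card (Subgroup.normalizer (H : Set G)) = 78 := by
  have : Fact (Nat.Prime 13) := ⟨by norm_num⟩
  have h1 := QG_normalizer_le H P 13 hP
  have h2 : H ≤ Subgroup.normalizer (P : Set G) := Subgroup.le_normalizer.trans h1
  have hcyc : IsCyclic ↥P := isCyclic_of_prime_card hPc
  obtain ⟨x0, hx0⟩ := IsCyclic.exists_generator (α := ↥P)
  have hord : orderOf (x0 : G) = 13 := by
    rw [Subgroup.orderOf_coe, orderOf_eq_card_of_forall_mem_zpowers hx0, hPc]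
  have hgen : ∀ y ∈ P, ∃ a : ℤ, (x0 : G) ^ a = y := by
    intro y hy
    obtain ⟨a, ha⟩ := Subgroup.mem_zpowers_iff.1 (hx0 ⟨y, hy⟩)
    exact ⟨a, by have := congrArg Subtype.val ha; simpa using this⟩
  have hCP : Subgroup.centralizer ({(x0 : G)} : Set G) = P := by
    symm
    apply Subgroup.eq_of_le_of_card_ge
    · intro y hy
      obtain ⟨a, rfl⟩ := hgen y hy
      rw [Subgroup.mem_centralizer_singleton_iff]
      exact ((Commute.refl (x0 : G)).zpow_left a).eq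
    · rw [hC13 _ hord, hPc]
  have hconj : ∀ g ∈ Subgroup.normalizer (P : Set G), ∃ a : ℤ, g * (x0 : G) * g⁻¹ = (x0 : G) ^ a := by
    intro g hg
    obtain ⟨a, ha⟩ := hgen _ ((Subgroup.mem_normalizer_iff.1 hg _).1 x0.2)
    exact ⟨a, ha.symm⟩
  have hcomm' : ∀ g ∈ Subgroup.normalizer (P : Set G), ∀ h ∈ Subgroup.normalizer (P : Set G),
      g⁻¹ * h⁻¹ * g * h ∈ P := by
    intro g hg h hh
    obtain ⟨a, ha⟩ := hconj g hg
    obtain ⟨b, hb⟩ := hconj h hh
    have e1 : (g * h) * (x0 : G) * (g * h)⁻¹ = (x0 : G) ^ (a * b) := by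
      have : (g * h) * (x0 : G) * (g * h)⁻¹ = g * (h * (x0 : G) * h⁻¹) * g⁻¹ := by group
      rw [this, hb, ← conj_zpow, ha, ← zpow_mul]
    have e2 : (h * g) * (x0 : G) * (h * g)⁻¹ = (x0 : G) ^ (a * b) := by
      have : (h * g) * (x0 : G) * (h * g)⁻¹ = h * (g * (x0 : G) * g⁻¹) * h⁻¹ := by group
      rw [this, ha, ← conj_zpow, hb, ← zpow_mul, mul_comm]
    rw [← hCP, Subgroup.mem_centralizer_singleton_iff]
    have e4 : (g⁻¹ * h⁻¹ * g * h) * (x0 : G) * (g⁻¹ * h⁻¹ * g * h)⁻¹ = (x0 : G) := by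
      have : (g⁻¹ * h⁻¹ * g * h) * (x0 : G) * (g⁻¹ * h⁻¹ * g * h)⁻¹ =
          (h * g)⁻¹ * ((g * h) * (x0 : G) * (g * h)⁻¹) * (h * g) := by group
      rw [this, e1, ← e2]
      group
    exact mul_inv_eq_iff_eq_mul.1 e4
  have hcomm : ∀ g ∈ Subgroup.normalizer (P : Set G), ∀ h ∈ Subgroup.normalizer (P : Set G),
      g * h * g⁻¹ * h⁻¹ ∈ P := by
    intro g hg h hh
    have := hcomm' g⁻¹ (inv_mem hg) h⁻¹ (inv_mem hh)
    simpa using this
  have h5 : Subgroup.normalizer (P : Set G) ≤ Subgroup.normalizer (H : Set G) := by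
    intro g hg
    apply Subgroup.mem_normalizer_fintype
    intro n hn
    have h6 := hcomm g hg n (h2 hn)
    have : g * n * g⁻¹ = (g * n * g⁻¹ * n⁻¹) * n := by group
    rw [this]
    exact H.mul_mem (hPH h6) hn
  rw [le_antisymm h1 h5, hN13 P hPc]

theorem card_normalizer_of_thirteen_dvd [Finite G]
    (hN13 : ∀ P : Subgroup G, Nat.card P = 13 → Nat.card (Subgroup.normalizer (P : Set G)) = 78)
    (hC13 : ∀ x : G, orderOf x = 13 → Nat.card (Subgroup.centralizer ({x} : Set G)) = 13)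
    (H : Subgroup G) (hH : Nat.card H = 26 ∨ Nat.card H = 39) :
    Nat.card (Subgroup.normalizer (H : Set G)) = 78 := by
  have : Fact (Nat.Prime 13) := ⟨by norm_num⟩
  rcases hH with hH | hH
  · obtain ⟨P, hPc, hPH, hP⟩ := QG_exists_char H 13 2 hH (by norm_num) (by norm_num)
    exact QH_aux hN13 hC13 H P hPc hPH hP
  · obtain ⟨P, hPc, hPH, hP⟩ := QG_exists_char H 13 3 hH (by norm_num) (by norm_num)
    exact QH_aux hN13 hC13 H P hPc hPH hP

end Cfsg.Agent.Lib.Helper40.L13
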