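import Mathlib
import Cfsg.Agent.Lib.Helper40.L13.Defs
import Cfsg.Agent.S0799
import Cfsg.Agent.Lib.Helper5.LinearCard

/-! S4234 farm, piece QI. Orders of the subgroups of PSL₂(13) from Dickson's theorem. -/

set_option autoImplicit false

namespace Cfsg.Agent.Lib.Helper40.L13

instance fact13 : Fact (Nat.Prime 13) := ⟨by norm_num⟩

theorem psl_card_of {K : Type*} [Field K] [Fintype K] (hK : Fintype.card K = 13) :
    Nat.card (Matrix.ProjectiveSpecialLinearGroup (Fin 2) K) = 1092 := by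
  have h := Cfsg.Agent.Lib.Helper5.card_PSL2 (F := K)
  rw [hK] at h
  norm_num at h
  omega

theorem psl13_card : Nat.card PSL13 = 1092 :=
  psl_card_of (K := ZMod 13) (ZMod.card 13)

theorem psl13_simple : IsSimpleGroup PSL13 :=
  Matrix.ProjectiveSpecialLinearGroup.rank_two_simple (F := ZMod 13) (by
    rw [Nat.card_eq_fintype_card, ZMod.card 13]; norm_num)

theorem fact_1092_13 : (1092 : ℕ).factorization 13 = 1 := by
  have e : (1092 : ℕ) = 13 ^ 1 * 84 := by norm_num
  rw [e, Nat.factorization_mul (by norm_num) (by norm_num),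
    Nat.Prime.factorization_pow (by norm_num)]
  simp
  exact Nat.factorization_eq_zero_of_not_dvd (by norm_num)

theorem card_normalizer_sylow13 {G : Type*} [Group G] [Finite G] [IsSimpleGroup G]
    (hc : Nat.card G = 1092) (P : Sylow 13 G) :
    Nat.card (Subgroup.normalizer ((P : Subgroup G) : Set G)) = 78 := by
  have h1 : Nat.card (Sylow 13 G) ≡ 1 [MOD 13] := card_sylow_modEq_one 13 G
  have h2 : Nat.card (Sylow 13 G) = (Subgroup.normalizer ((P : Subgroup G) : Set G)).index :=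
    P.card_eq_index_normalizer
  have h3 := (Subgroup.normalizer ((P : Subgroup G) : Set G)).card_mul_index
  rw [hc] at h3
  have hP : Nat.card P = 13 := by
    rw [P.card_eq_multiplicity, hc, fact_1092_13]; norm_num
  have h4 : Nat.card P ∣ Nat.card (Subgroup.normalizer ((P : Subgroup G) : Set G)) :=
    Subgroup.card_dvd_of_le Subgroup.le_normalizer
  rw [hP] at h4
  obtain ⟨c, hc'⟩ := h4
  rw [h2] at h1
  have hne1 : (Subgroup.normalizer ((P : Subgroup G) : Set G)).index ≠ 1 := by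
    intro h
    have htop : Subgroup.normalizer ((P : Subgroup G) : Set G) = ⊤ :=
      Subgroup.index_eq_one.mp h
    have hn : (P : Subgroup G).Normal := Subgroup.normalizer_eq_top_iff.mp htop
    rcases hn.eq_bot_or_eq_top with hb | ht
    · rw [hb] at hP; simp at hP
    · rw [ht, Subgroup.card_top, hc] at hP; norm_num at hP
  generalize (Subgroup.normalizer ((P : Subgroup G) : Set G)).index = i at h1 h3 hne1
  rw [hc'] at h3 ⊢
  have h5 : c * i = 84 := by nlinarith
  have hi84 : i ∈ Nat.divisors 84 := by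
    rw [Nat.mem_divisors]; exact ⟨⟨c, by rw [← h5]; ring⟩, by norm_num⟩
  have key : ∀ i ∈ Nat.divisors 84, i % 13 = 1 → i ≠ 1 → i = 14 := by decide
  have hi14 : i = 14 := key i hi84 h1 hne1
  rw [hi14] at h5
  omega

theorem psl13_ordList : OrdList PSL13 := by
  intro H
  have hfin : Finite PSL13 := Nat.finite_of_card_ne_zero (by rw [psl13_card]; norm_num)
  have hs := psl13_simple
  have hdvd : Nat.card H ∣ 1092 := by
    rw [← psl13_card]; exact Subgroup.card_subgroup_dvd_card H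
  have hch : CharP (ZMod 13) 13 := ZMod.charP 13
  simp only [Finset.mem_insert, Finset.mem_singleton]
  rcases Cfsg.Agent.S0799.result (F := ZMod 13) (q := 13) (ZMod.card 13) 13 H with
    ⟨k, hk, hH⟩ | ⟨P, K, hK, ⟨e⟩⟩ | ⟨⟨e⟩⟩ | ⟨⟨e⟩⟩ | ⟨⟨e⟩⟩ | ⟨K, _, _, m, hm, ⟨⟨e⟩⟩ | ⟨⟨e⟩⟩⟩
  · norm_num at hk
    have hk' : k ∈ Nat.divisors 7 ∨ k ∈ Nat.divisors 6 := by
      rcases hk with h | h
      · left; rw [Nat.mem_divisors]; exact ⟨h, by norm_num⟩
      · right; rw [Nat.mem_divisors]; exact ⟨h, by norm_num⟩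
    have hk'' : k = 1 ∨ k = 2 ∨ k = 3 ∨ k = 6 ∨ k = 7 := by
      have k7 : ∀ k ∈ Nat.divisors 7, k = 1 ∨ k = 2 ∨ k = 3 ∨ k = 6 ∨ k = 7 := by decide
      have k6 : ∀ k ∈ Nat.divisors 6, k = 1 ∨ k = 2 ∨ k = 3 ∨ k = 6 ∨ k = 7 := by decide
      rcases hk' with h | h
      · exact k7 k h
      · exact k6 k h
    rcases hH with ⟨-, hc⟩ | ⟨⟨e⟩⟩
    · rw [hc]; omega
    · rw [Nat.card_congr e.toEquiv, DihedralGroup.nat_card]; omega
  · have h78 := card_normalizer_sylow13 psl13_card P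
    have h1 : Nat.card K ∣ 78 := by rw [← h78]; exact Subgroup.card_dvd_of_le hK
    rw [Nat.card_congr e.toEquiv]
    have k78 : ∀ k ∈ Nat.divisors 78, k = 1 ∨ k = 2 ∨ k = 3 ∨ k = 6 ∨ k = 13 ∨ k = 26 ∨ k = 39 ∨
        k = 78 := by decide
    have := k78 _ (Nat.mem_divisors.mpr ⟨h1, by norm_num⟩)
    omega
  · rw [Nat.card_congr e.toEquiv, nat_card_alternatingGroup]
    simp [Nat.factorial]
  · exfalso
    rw [Nat.card_congr e.toEquiv, Nat.card_perm] at hdvd
    simp [Nat.factorial] at hdvd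
  · exfalso
    rw [Nat.card_congr e.toEquiv, nat_card_alternatingGroup] at hdvd
    simp [Nat.factorial] at hdvd
  · have hK13 : Fintype.card K = 13 := ((Nat.Prime.pow_eq_iff (by norm_num)).mp hm).1
    rw [Nat.card_congr e.toEquiv, psl_card_of hK13]
    simp
  · exfalso
    have hK13 : Fintype.card K = 13 := ((Nat.Prime.pow_eq_iff (by norm_num)).mp hm).1
    rw [Nat.card_congr e.toEquiv, Cfsg.Agent.Lib.Helper5.card_PGL_eq_card_SL,
      Cfsg.Agent.Lib.Helper5.card_SL2, hK13] at hdvd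
    norm_num at hdvd

end Cfsg.Agent.Lib.Helper40.L13
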