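import Mathlib
import Cfsg.Agent.Lib.Helper40.L13.Defs


/-! S4234 farm, piece QL. A subgroup of a direct product of groups of coprime orders is a product. -/

set_option autoImplicit false

namespace Cfsg.Agent.Lib.Helper40.L13

/-- the comap of a coatom along a surjection is a coatom -/
theorem QL_isCoatom_comap {G G' : Type*} [Group G] [Group G'] (f : G →* G')
    (hf : Function.Surjective f) (N : Subgroup G') (hN : IsCoatom N) : IsCoatom (N.comap f) := by
  constructor
  · intro h
    apply hN.1
    rw [← Subgroup.map_comap_eq_self_of_surjective hf N, h, Subgroup.map_top_of_surjective f hf]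
  · intro M hM
    have h1 : N ≤ M.map f := by
      rw [← Subgroup.map_comap_eq_self_of_surjective hf N]
      exact Subgroup.map_mono hM.le
    have hker : f.ker ≤ M := le_trans (MonoidHom.ker_le_comap f N) hM.le
    have h2 : (M.map f).comap f = M := by rw [Subgroup.comap_map_eq, sup_eq_left.2 hker]
    rcases eq_or_lt_of_le h1 with h3 | h3
    · exfalso
      rw [h3, h2] at hM
      exact lt_irrefl _ hM
    · have := hN.2 _ h3
      rw [← h2, this, Subgroup.comap_top]

theorem eq_prod_of_coprime {K S : Type*} [Group K] [Group S] [Finite K] [Finite S]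
    (hKS : (Nat.card K).Coprime (Nat.card S)) (H : Subgroup (K × S)) :
    H = (H.map (MonoidHom.fst K S)).prod (H.map (MonoidHom.snd K S)) := by
  have key1 : ∀ (k : K) (s : S), (k, s) ∈ H → (k, (1 : S)) ∈ H := by
    intro k s h
    obtain ⟨a, ha1, ha2⟩ := Nat.chineseRemainder hKS 1 0
    have h3 := H.pow_mem h a
    rw [Prod.pow_mk] at h3
    have e1 : k ^ a = k := by
      have := (pow_eq_pow_iff_modEq (x := k)).2 (ha1.of_dvd (orderOf_dvd_natCard k))
      rwa [pow_one] at this
    have e2 : s ^ a = 1 := by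
      have := (pow_eq_pow_iff_modEq (x := s)).2 (ha2.of_dvd (orderOf_dvd_natCard s))
      rwa [pow_zero] at this
    rwa [e1, e2] at h3
  have key2 : ∀ (k : K) (s : S), (k, s) ∈ H → ((1 : K), s) ∈ H := by
    intro k s h
    have h1 := H.mul_mem (H.inv_mem (key1 k s h)) h
    simpa using h1
  apply le_antisymm
  · intro x hx
    exact Subgroup.mem_prod.2 ⟨⟨x, hx, rfl⟩, ⟨x, hx, rfl⟩⟩
  · rintro ⟨k, s⟩ ⟨⟨⟨k1, s1⟩, h1, hk⟩, ⟨⟨k2, s2⟩, h2, hs⟩⟩
    have hk' : k1 = k := hk
    have hs' : s2 = s := hs
    subst hk' hs'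
    have := H.mul_mem (key1 _ _ h1) (key2 _ _ h2)
    simpa using this

end Cfsg.Agent.Lib.Helper40.L13
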