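import Mathlib
import Cfsg.Agent.Lib.Helper40.L13.Defs
import Cfsg.Agent.Lib.Helper40.L13.QL


/-! S4234 farm, piece QK. -/

set_option autoImplicit false

namespace Cfsg.Agent.Lib.Helper40.L13

theorem QK_conj_mem {K : Type*} [Group K] [Finite K]
    (hZ : Nat.card (Subgroup.center K) = 2)
    (hinv : ∀ x : K, x ^ 2 = 1 → x ∈ Subgroup.center K) (H : Subgroup K) (g : K)
    (hg : QuotientGroup.mk' (Subgroup.center K) g ∈
      Subgroup.normalizer ((H.map (QuotientGroup.mk' (Subgroup.center K)) : Subgroup _) : Set _))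
    (h : K) (hh : h ∈ H) : g * h * g⁻¹ ∈ H := by
  have h1 := (Subgroup.mem_normalizer_iff.1 hg (QuotientGroup.mk' _ h)).1 ⟨h, hh, rfl⟩
  obtain ⟨h', hh', he⟩ := h1
  rw [← map_inv, ← map_mul, ← map_mul] at he
  have hz : h'⁻¹ * (g * h * g⁻¹) ∈ Subgroup.center K := QuotientGroup.eq.1 he
  set z := h'⁻¹ * (g * h * g⁻¹) with hzdef
  have hghg : g * h * g⁻¹ = h' * z := by rw [hzdef]; group
  by_cases hZH : Subgroup.center K ≤ H
  · rw [hghg]
    exact H.mul_mem hh' (hZH hz)
  have hbot : ∀ y ∈ Subgroup.center K, y ∈ H → y = 1 := by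
    have h2 : Nat.card (H ⊓ Subgroup.center K : Subgroup K) ∣ 2 := by
      rw [← hZ]
      exact Subgroup.card_dvd_of_le inf_le_right
    rcases (Nat.dvd_prime Nat.prime_two).1 h2 with h3 | h3
    · intro y hy1 hy2
      have := Subgroup.eq_bot_of_card_eq _ h3
      have h4 : y ∈ (H ⊓ Subgroup.center K : Subgroup K) := ⟨hy2, hy1⟩
      rw [this] at h4
      exact Subgroup.mem_bot.1 h4
    · exfalso
      apply hZH
      have := Subgroup.eq_of_le_of_card_ge (inf_le_right : H ⊓ Subgroup.center K ≤ _)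
        (by rw [h3, hZ])
      rw [← this]
      exact inf_le_left
  have hz2 : z ^ 2 = 1 := by
    have := pow_card_eq_one' (x := (⟨z, hz⟩ : Subgroup.center K))
    rw [hZ] at this
    exact congrArg Subtype.val this
  have hodd : Odd (orderOf h) := by
    by_contra hcon
    rw [Nat.not_odd_iff_even] at hcon
    obtain ⟨m, hm⟩ := hcon
    have h3 : (h ^ m) ^ 2 = 1 := by
      rw [← pow_mul, mul_two, ← hm, pow_orderOf_eq_one]
    have h4 := hbot _ (hinv _ h3) (H.pow_mem hh m)
    have h5 := orderOf_dvd_of_pow_eq_one h4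
    have h6 : 0 < orderOf h := orderOf_pos h
    have := Nat.le_of_dvd (by omega) h5
    omega
  obtain ⟨m, hm⟩ := hodd
  have h7 : (g * h * g⁻¹) ^ orderOf h = 1 := by
    rw [conj_pow, pow_orderOf_eq_one, mul_one, mul_inv_cancel]
  have hcomm : Commute h' z := ((Subgroup.mem_center_iff.1 hz) h')
  rw [hghg, hcomm.mul_pow] at h7
  have h8 : z ^ orderOf h = z := by
    rw [hm, pow_succ, pow_mul, hz2, one_pow, one_mul]
  rw [h8] at h7
  have h9 : z ∈ H := by
    have : z = (h' ^ orderOf h)⁻¹ := (inv_eq_of_mul_eq_one_right h7).symm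
    rw [this]
    exact H.inv_mem (H.pow_mem hh' _)
  rw [hghg, hbot z hz h9, mul_one]
  exact hh'

theorem maxNorm_of_quotient_center {K : Type*} [Group K] [Finite K]
    (hZ : Nat.card (Subgroup.center K) = 2)
    (hinv : ∀ x : K, x ^ 2 = 1 → x ∈ Subgroup.center K)
    (h : MaxNorm (K ⧸ Subgroup.center K)) : MaxNorm K := by
  intro H hH
  have hnorm : Subgroup.normalizer (H : Set K) =
      (Subgroup.normalizer ((H.map (QuotientGroup.mk' (Subgroup.center K)) : Subgroup _) :
        Set _)).comap (QuotientGroup.mk' (Subgroup.center K)) := by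
    apply le_antisymm
    · exact Subgroup.map_le_iff_le_comap.1 (Subgroup.le_normalizer_map _)
    · intro g hg
      exact Subgroup.mem_normalizer_fintype (fun n hn => QK_conj_mem hZ hinv H g hg n hn)
  have hn : ¬ (H.map (QuotientGroup.mk' (Subgroup.center K))).Normal := by
    intro hn
    apply hH
    rw [← Subgroup.normalizer_eq_top_iff] at hn ⊢
    rw [hnorm, hn, Subgroup.comap_top]
  rw [hnorm]
  exact QL_isCoatom_comap _ (QuotientGroup.mk'_surjective _) _ (h _ hn)

end Cfsg.Agent.Lib.Helper40.L13
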