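import Mathlib
import Cfsg.Agent.Lib.Helper40.L13.Defs


/-! S4234 farm, piece QM. Transport along an isomorphism. -/

set_option autoImplicit false

namespace Cfsg.Agent.Lib.Helper40.L13

theorem MaxNorm.of_mulEquiv {K K' : Type*} [Group K] [Group K'] (e : K ≃* K') (h : MaxNorm K') :
    MaxNorm K := by
  intro H hH
  have h1 : ¬ (H.map e.toMonoidHom).Normal := by
    intro hn
    apply hH
    have := hn.comap e.toMonoidHom
    rwa [Subgroup.comap_map_eq_self_of_injective e.injective] at this
  have h2 := h _ h1
  rw [← Subgroup.map_equiv_normalizer_eq] at h2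
  exact (e.mapSubgroup.isCoatom_iff _).1 h2

end Cfsg.Agent.Lib.Helper40.L13
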