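import Mathlib
import Cfsg.Agent.Lib.Helper40.L13.Defs
import Cfsg.Agent.Lib.Helper40.L13.QL

/-! S4234 farm, piece QP. -/

set_option autoImplicit false

namespace Cfsg.Agent.Lib.Helper40.L13

theorem maxNorm_prod {K S : Type*} [Group K] [CommGroup S] [Finite K] [Finite S]
    (hKS : (Nat.card K).Coprime (Nat.card S)) (h : MaxNorm K) : MaxNorm (K × S) := by
  intro H hH
  obtain ⟨A, B, hHp⟩ : ∃ (A : Subgroup K) (B : Subgroup S), H = A.prod B :=
    ⟨_, _, eq_prod_of_coprime hKS H⟩
  have hnorm : Subgroup.normalizer (H : Set (K × S)) =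
      (Subgroup.normalizer (A : Set K)).comap (MonoidHom.fst K S) := by
    ext ⟨g, t⟩
    rw [Subgroup.mem_comap, Subgroup.mem_normalizer_iff, Subgroup.mem_normalizer_iff]
    constructor
    · intro h k
      have h1 := h (k, 1)
      rw [hHp, Subgroup.mem_prod, Subgroup.mem_prod] at h1
      simpa [B.one_mem] using h1
    · rintro h ⟨k, s⟩
      rw [hHp, Subgroup.mem_prod, Subgroup.mem_prod]
      have h1 : t * s * t⁻¹ = s := by rw [mul_comm t s, mul_inv_cancel_right]
      have h2 := h k
      simp only [Prod.mk_mul_mk, Prod.inv_mk, h1]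
      simp only [MonoidHom.coe_fst] at h2
      rw [h2]
  have hAn : ¬ A.Normal := by
    intro hn
    apply hH
    rw [← Subgroup.normalizer_eq_top_iff] at hn ⊢
    rw [hnorm, hn, Subgroup.comap_top]
  rw [hnorm]
  exact QL_isCoatom_comap _ Prod.fst_surjective _ (h A hAn)

end Cfsg.Agent.Lib.Helper40.L13
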