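import Mathlib
import Cfsg.Agent.Lib.Helper40.L13.Defs
import Cfsg.Agent.Lib.Helper41.SL2Basic
import Cfsg.Agent.Lib.Helper41.SL2Invol

/-! S4234 farm, piece QS. -/

set_option autoImplicit false

namespace Cfsg.Agent.Lib.Helper40.L13

open Cfsg.Agent.Lib.Helper41

theorem QS_fact : Fact (Nat.Prime 13) := ⟨by norm_num⟩

theorem QS_two_ne : (2 : ZMod 13) ≠ 0 := by decide

theorem QS_mem_center (x : SL13) : x ∈ Subgroup.center SL13 ↔ x = 1 ∨ x = -1 := by
  have := QS_fact
  rw [sl2_mem_center_iff, sl2_eq_one_iff, sl2_eq_neg_one_iff]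

theorem sl13_card_center : Nat.card (Subgroup.center SL13) = 2 := by
  have := QS_fact
  have h1 : ((Subgroup.center SL13 : Subgroup SL13) : Set SL13) = {1, -1} := by
    ext x
    rw [SetLike.mem_coe, QS_mem_center]
    simp
  have h2 : Nat.card (Subgroup.center SL13) = Set.ncard ((Subgroup.center SL13 : Subgroup SL13) : Set SL13) :=
    Nat.card_coe_set_eq _
  rw [h2, h1, Set.ncard_pair (sl2_neg_one_ne_one QS_two_ne).symm]

theorem sl13_sq_eq_one (x : SL13) (hx : x ^ 2 = 1) : x ∈ Subgroup.center SL13 := by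
  have := QS_fact
  rw [QS_mem_center]
  rw [pow_two] at hx
  exact (sl2_mul_self_eq_one_iff QS_two_ne x).1 hx

end Cfsg.Agent.Lib.Helper40.L13
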